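import Mathlib
import Cfsg.Agent.H585.SuRow
import Cfsg.Agent.H585.SuTw
import Cfsg.Agent.H965.ASLt

/-!
# `AS2` of exceptional groups of Lie type: tools (helper288, for S3943)

`RowC G q c`: the row of helper585 (`H585.SuRow.Row`) together with the bound `c` for the order of the centraliser of
the elements of order `r`.
-/

set_option autoImplicit false
set_option linter.unusedSectionVars false

namespace Cfsg.Agent.H288.AsT

open Subgroup Cfsg Cfsg.Lie Cfsg.Agent.H465.SU Cfsg.Agent.H585.SuTor Cfsg.Agent.H585.SuRow Cfsg.Agent.H585.SuUntw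
  Cfsg.Agent.H585.SuSel Cfsg.Agent.Nodes.RGDChev Cfsg.Agent.H62.PPChev Cfsg.Agent.H965.AS Cfsg.Agent.H965.SU

universe u

/-- the centraliser of the element of order `r` of a cyclic Sylow subgroup -/
theorem card_cent_le {G : Type*} [Group G] [Finite G] {r a : ℕ} (hr : r.Prime) {y : G} (ha : 1 ≤ a)
    (hy : orderOf y = r ^ a) (hfull : ¬ r ^ (a + 1) ∣ Nat.card G) {T : Subgroup G}
    (hcent : ∀ t ∈ T, orderOf t = r → centralizer {t} ≤ T) (hrT : r ∣ Nat.card ↥T) :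
    Nat.card ↥(centralizer ({y ^ r ^ (a - 1)} : Set G)) ≤ Nat.card ↥T := by
  have : Fact r.Prime := ⟨hr⟩
  obtain ⟨t, ht⟩ := exists_prime_orderOf_dvd_card' (G := ↥T) r hrT
  have hto : orderOf (t : G) = r := by rw [Subgroup.orderOf_coe, ht]
  have hc := pcyc (a := a) hr hy hfull
  have hzo : orderOf (y ^ r ^ (a - 1)) = r := by
    rw [← Nat.card_zpowers]; exact card_socle hy ha
  -- Sylow subgroups containing `y`, `t`
  obtain ⟨P, hP⟩ := (IsPGroup.of_card (p := r) (n := a) (G := zpowers y) (by rw [Nat.card_zpowers, hy])).exists_le_sylow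
  obtain ⟨Q, hQ⟩ := (IsPGroup.of_card (p := r) (n := 1) (G := zpowers (t : G))
    (by rw [Nat.card_zpowers, hto, pow_one])).exists_le_sylow
  obtain ⟨g, hg⟩ := MulAction.exists_smul_eq G Q P
  have htP : g * (t : G) * g⁻¹ ∈ (P : Subgroup G) := by
    rw [← hg]
    exact ⟨t, hQ (mem_zpowers _), rfl⟩
  have hzP : y ^ r ^ (a - 1) ∈ (P : Subgroup G) := pow_mem (hP (mem_zpowers y)) _
  have hcj : orderOf (g * (t : G) * g⁻¹) = r := by
    rw [← hto]
    exact orderOf_injective (MulAut.conj g).toMonoidHom (MulAut.conj g).injective (t : G)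
  have h1 := zpowers_eq_of_cyclic (T := (P : Subgroup G)) (hc _ P.isPGroup') hzP htP hzo hcj
  -- a generator of the conjugate
  have h2 : g⁻¹ * y ^ r ^ (a - 1) * g ∈ T := by
    have h3 : y ^ r ^ (a - 1) ∈ zpowers (g * (t : G) * g⁻¹) := by rw [← h1]; exact mem_zpowers _
    obtain ⟨i, hi⟩ := mem_zpowers_iff.1 h3
    rw [← hi, conj_zpow]
    have : g⁻¹ * (g * (t : G) ^ i * g⁻¹) * g = (t : G) ^ i := by group
    rw [this]
    exact zpow_mem t.2 i
  have h4 : orderOf (g⁻¹ * y ^ r ^ (a - 1) * g) = r := by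
    have h6 := orderOf_injective (MulAut.conj g⁻¹).toMonoidHom (MulAut.conj g⁻¹).injective (y ^ r ^ (a - 1))
    rw [hzo] at h6
    simpa using h6
  have h5 := hcent _ h2 h4
  refine Nat.card_le_card_of_injective (fun u : ↥(centralizer ({y ^ r ^ (a - 1)} : Set G)) =>
    (⟨g⁻¹ * u * g, h5 ?_⟩ : ↥T)) ?_
  · rw [mem_centralizer_singleton_iff]
    have h6 := mem_centralizer_singleton_iff.1 u.2
    calc g⁻¹ * (u : G) * g * (g⁻¹ * y ^ r ^ (a - 1) * g) = g⁻¹ * ((u : G) * y ^ r ^ (a - 1)) * g := by group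
      _ = g⁻¹ * (y ^ r ^ (a - 1) * (u : G)) * g := by rw [h6]
      _ = g⁻¹ * y ^ r ^ (a - 1) * g * (g⁻¹ * u * g) := by group
  · intro u v h
    have h6 : g⁻¹ * (u : G) * g = g⁻¹ * (v : G) * g := congrArg Subtype.val h
    exact Subtype.ext (mul_left_cancel (mul_right_cancel h6))

/-- the row with a bound for the centraliser -/
def RowC (G : Type*) [Group G] (q c : ℕ) : Prop :=
  ∃ (r a : ℕ) (y : G), r.Prime ∧ 7 ≤ r ∧ 1 ≤ a ∧ orderOf y = r ^ a ∧ ¬ r ^ (a + 1) ∣ Nat.card G ∧ SUel r y ∧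
    (∃ p f : ℕ, p.Prime ∧ q = p ^ f ∧ ¬ r ∣ f) ∧ Nat.card ↥(centralizer ({y ^ r ^ (a - 1)} : Set G)) ≤ c

theorem RowC.mono {G : Type*} [Group G] {q c c' : ℕ} (h : RowC G q c) (hc : c ≤ c') : RowC G q c' := by
  obtain ⟨r, a, y, h1, h2, h3, h4, h5, h6, h7, h8⟩ := h
  exact ⟨r, a, y, h1, h2, h3, h4, h5, h6, h7, h8.trans hc⟩

/-- **The criterion.** `c` is less than the index of every proper subgroup. -/
theorem RowC.as2 {S : Type u} [Group S] [Finite S] [IsSimpleGroup S] {q c b : ℕ} (h : RowC S q c)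
    (hout : ∀ r : ℕ, r.Prime → 7 ≤ r → (∃ p f : ℕ, p.Prime ∧ q = p ^ f ∧ ¬ r ∣ f) → ¬ r ∣ Nat.card (Cfsg.Out S))
    (hb : ∀ H : Subgroup S, H ≠ ⊤ → b ≤ H.index) (hcb : c < b) : AS2 S := by
  obtain ⟨r, a, y, hr, h7, ha, hy, hfull, hsu, hf, hc⟩ := h
  have hna : ¬ IsMulCommutative S := by
    intro hcm
    have h1 : centralizer ({y ^ r ^ (a - 1)} : Set S) = ⊤ := by
      rw [eq_top_iff]
      intro g _
      rw [mem_centralizer_singleton_iff]
      exact hcm.is_comm.comm _ _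
    rw [h1, Subgroup.card_top] at hc
    have h2 := hb ⊥ bot_ne_top
    rw [Subgroup.index_bot] at h2
    omega
  refine AS2.of_lt (p := r) (a := a) (y := y) hna
    ⟨hr, by omega, ha, hy, hsu, hfull, fun β hβ => inner_of_card hr (hout r hr h7 hf) β hβ⟩ (by omega) hc hb ?_
  have h8 : 7 * b ≤ r ^ a * b := by
    refine Nat.mul_le_mul_right _ ?_
    calc 7 ≤ r := h7
      _ = r ^ 1 := (pow_one r).symm
      _ ≤ r ^ a := Nat.pow_le_pow_right hr.pos ha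
  omega

theorem dvd_card_T {G : Type*} [Group G] {T : Subgroup G} {r d N N' : ℕ} (hr : r.Prime) (hrN : r ∣ N)
    (h2 : N' * N ∣ d * Nat.card ↥T) (hrd : ¬ r ∣ d) : r ∣ Nat.card ↥T := by
  have h1 : r ∣ d * Nat.card ↥T := (hrN.mul_left N').trans h2
  exact (hr.dvd_mul.1 h1).resolve_left hrd

section

variable {D : ChevalleyDatum} {l : ℕ} {M : CoxeterMatrix (Fin l)} (hp : IsType D l M) {K : Type u} [Field K]
  [Fintype K]

include hp

/-- the row from the torus -/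
theorem rowC_of [Finite M.Group] {q e : ℕ} (hF : Fintype.card K = q) {N N' d : ℕ} {r a : ℕ} (hr : r.Prime)
    (h7 : 7 ≤ r) (ha : 1 ≤ a) (ho : orderOf (q : ZMod r) = e) (haN : r ^ a ∣ N) (haN' : ¬ r ^ (a + 1) ∣ N)
    (hdim : D.rank + D.nroots + r ^ (a - 1) < r ^ a) (hf : ∃ p f : ℕ, p.Prime ∧ q = p ^ f ∧ ¬ r ∣ f)
    {T : Subgroup ↥(D.group K)} (hc : IsCyclic ↥T)
    (hcent : ∀ y ∈ T, orderOf y = r → Subgroup.centralizer {y} ≤ T) (hN' : ¬ r ∣ N')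
    (h1 : Nat.card ↥T ∣ N' * N) (h2 : N' * N ∣ d * Nat.card ↥T) (hrd : ¬ r ∣ d) (hqN : q.Coprime (N' * N))
    (hm : ∀ i : Fin l, ¬ e ∣ num D i) : RowC ↥(D.group K) q (N' * N) := by
  obtain ⟨p, hpc⟩ := CharP.exists K
  have hq1 : 1 ≤ q := by rw [← hF]; exact Fintype.card_pos
  obtain ⟨y, hy1, hy2, hy3⟩ := row hp M.toCoxeterSystem p hr (by omega) hc hcent h1 h2 hrd ha (haN.mul_left _)
    (fun h => haN' (Nat.Coprime.dvd_of_dvd_mul_left
      (Nat.Coprime.pow_left _ ((Nat.Prime.coprime_iff_not_dvd hr).2 hN')) h))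
    (prime_not_dvd hF p hqN) hdim (fun i h => hm i (by
      rw [hF, dvd_pow_sub_one hq1, ho] at h
      exact h))
  have hrN : r ∣ N := (dvd_pow_self r (by omega)).trans haN
  have hNpos : 0 < N' * N := by
    refine Nat.pos_of_ne_zero fun h0 => ?_
    rw [h0] at h2
    have h3 : d * Nat.card ↥T = 0 := Nat.eq_zero_of_zero_dvd h2
    rcases Nat.mul_eq_zero.1 h3 with h4 | h4
    · exact hrd (h4 ▸ dvd_zero r)
    · exact Nat.card_pos.ne' h4
  exact ⟨r, a, y, hr, h7, ha, hy1, hy2, hy3, hf,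
    (card_cent_le hr ha hy1 hy2 hcent (dvd_card_T hr hrN h2 hrd)).trans (Nat.le_of_dvd hNpos h1)⟩

/-- the row for small fields -/
theorem rowC_small_of [Finite M.Group] {q e : ℕ} (hF : Fintype.card K = q) {N N' d : ℕ} {r : ℕ} (hr : r.Prime)
    (h7 : 7 ≤ r) (ho : orderOf (q : ZMod r) = e) (haN : r ∣ N) (haN' : ¬ r ^ 2 ∣ N)
    (hf : ∃ p f : ℕ, p.Prime ∧ q = p ^ f ∧ ¬ r ∣ f) {T : Subgroup ↥(D.group K)} (hc : IsCyclic ↥T)
    (hcent : ∀ y ∈ T, orderOf y = r → Subgroup.centralizer {y} ≤ T) (hN' : ¬ r ∣ N')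
    (h1 : Nat.card ↥T ∣ N' * N) (h2 : N' * N ∣ d * Nat.card ↥T) (hrd : ¬ r ∣ d) (hqN : q.Coprime (N' * N))
    (hm : ∀ i : Fin l, ¬ e ∣ num D i) {L : List (ℕ × ℕ)} {m : ℕ} (hm0 : m * Nat.card ↥(D.group K) = pp L)
    (hprime : ∀ x ∈ L, x.1.Prime) (hnd : (L.map Prod.fst).Nodup) {p : ℕ} (hp : p.Prime) (hpq : p ∣ q)
    (hchk : Chk r p L) : RowC ↥(D.group K) q (N' * N) := by
  obtain ⟨p', hpc⟩ := CharP.exists K
  have hpp : p' = p := by
    obtain ⟨f, hp', hf⟩ := FiniteField.card K p'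
    rw [hF] at hf
    rw [hf] at hpq
    exact ((Nat.prime_dvd_prime_iff_eq hp hp').1 (hp.dvd_of_dvd_pow hpq)).symm
  subst hpp
  have hq1 : 1 ≤ q := by rw [← hF]; exact Fintype.card_pos
  obtain ⟨y, hy1, hy2, hy3⟩ := row_small ‹IsType D l M› M.toCoxeterSystem p' hr hc hcent h1 h2 hrd (haN.mul_left _)
    (fun h => haN' (Nat.Coprime.dvd_of_dvd_mul_left
      (Nat.Coprime.pow_left _ ((Nat.Prime.coprime_iff_not_dvd hr).2 hN')) h))
    (prime_not_dvd hF p' hqN) (fun i h => hm i (by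
      rw [hF, dvd_pow_sub_one hq1, ho] at h
      exact h)) (arith_of_list hr (hm0 ▸ Dvd.intro_left _ rfl) hprime hnd hchk)
  have hNpos : 0 < N' * N := by
    refine Nat.pos_of_ne_zero fun h0 => ?_
    rw [h0] at h2
    have h3 : d * Nat.card ↥T = 0 := Nat.eq_zero_of_zero_dvd h2
    rcases Nat.mul_eq_zero.1 h3 with h4 | h4
    · exact hrd (h4 ▸ dvd_zero r)
    · exact Nat.card_pos.ne' h4
  exact ⟨r, 1, y, hr, h7, le_rfl, hy1, hy2, hy3, hf,
    (card_cent_le hr le_rfl hy1 hy2 hcent (dvd_card_T hr haN h2 hrd)).trans (Nat.le_of_dvd hNpos h1)⟩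

end

section Gen

variable {n : Type} [Fintype n] [DecidableEq n] {K : Type u} [Field K] [Fintype K]
  {G : Subgroup (Matrix.GeneralLinearGroup n K)}

open Cfsg.Agent.H585.SuTw (Own)

theorem tw_rowC_of {q c : ℕ} (hK : Fintype.card K = q ^ c) {N N' d : ℕ} {r a : ℕ} (hr : r.Prime)
    (h7 : 7 ≤ r) (ha : 1 ≤ a) (haN : r ^ a ∣ N) (haN' : ¬ r ^ (a + 1) ∣ N)
    (hdim : Fintype.card n + r ^ (a - 1) < r ^ a) (hf : ∃ p f : ℕ, p.Prime ∧ q = p ^ f ∧ ¬ r ∣ f)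
    {T : Subgroup ↥G} (hc : IsCyclic ↥T)
    (hcent : ∀ y ∈ T, orderOf y = r → Subgroup.centralizer {y} ≤ T) (hN' : ¬ r ∣ N')
    (h1 : Nat.card ↥T ∣ N' * N) (h2 : N' * N ∣ d * Nat.card ↥T) (hrd : ¬ r ∣ d) (hqN : q.Coprime (N' * N))
    (hown : ∀ (p : ℕ) [CharP K p], Own ↥G p r) : RowC ↥G q (N' * N) := by
  obtain ⟨p, hpc⟩ := CharP.exists K
  obtain ⟨y, hy1, hy2, hy3⟩ := exists_SU (Cfsg.Agent.H585.SuTw.rho G) (Cfsg.Agent.H585.SuTw.rho_injective G) (p := p)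
    hr (by omega) hc hcent h1 h2 hrd ha
    (haN.mul_left _)
    (fun h => haN' (Nat.Coprime.dvd_of_dvd_mul_left
      (Nat.Coprime.pow_left _ ((Nat.Prime.coprime_iff_not_dvd hr).2 hN')) h))
    (Cfsg.Agent.H585.SuTw.prime_not_dvd hK p hqN) (by rw [Module.finrank_fintype_fun_eq_card]; exact hdim) (hown p)
  have hrN : r ∣ N := (dvd_pow_self r (by omega)).trans haN
  have hNpos : 0 < N' * N := by
    refine Nat.pos_of_ne_zero fun h0 => ?_
    rw [h0] at h2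
    have h3 : d * Nat.card ↥T = 0 := Nat.eq_zero_of_zero_dvd h2
    rcases Nat.mul_eq_zero.1 h3 with h4 | h4
    · exact hrd (h4 ▸ dvd_zero r)
    · exact Nat.card_pos.ne' h4
  exact ⟨r, a, y, hr, h7, ha, hy1, hy2, hy3, hf,
    (card_cent_le hr ha hy1 hy2 hcent (dvd_card_T hr hrN h2 hrd)).trans (Nat.le_of_dvd hNpos h1)⟩

theorem tw_rowC_small_of {q c : ℕ} (hK : Fintype.card K = q ^ c) {N N' d : ℕ} {r : ℕ} (hr : r.Prime)
    (h7 : 7 ≤ r) (haN : r ∣ N) (haN' : ¬ r ^ 2 ∣ N)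
    (hf : ∃ p f : ℕ, p.Prime ∧ q = p ^ f ∧ ¬ r ∣ f) {T : Subgroup ↥G} (hc : IsCyclic ↥T)
    (hcent : ∀ y ∈ T, orderOf y = r → Subgroup.centralizer {y} ≤ T) (hN' : ¬ r ∣ N')
    (h1 : Nat.card ↥T ∣ N' * N) (h2 : N' * N ∣ d * Nat.card ↥T) (hrd : ¬ r ∣ d) (hqN : q.Coprime (N' * N))
    (hown : ∀ (p : ℕ) [CharP K p], Own ↥G p r) {L : List (ℕ × ℕ)} {m : ℕ} (hm0 : m * Nat.card ↥G = pp L)
    (hprime : ∀ x ∈ L, x.1.Prime) (hnd : (L.map Prod.fst).Nodup) {p : ℕ} (hp : p.Prime) (hpq : p ∣ q)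
    (hchk : Chk r p L) : RowC ↥G q (N' * N) := by
  obtain ⟨p', hpc⟩ := CharP.exists K
  have hpp : p' = p := by
    obtain ⟨f, hp', hf⟩ := FiniteField.card K p'
    have h3 : p ∣ p' ^ (f : ℕ) := by
      rw [← hf, hK]
      rcases Nat.eq_zero_or_pos c with h0 | h0
      · exfalso
        have h4 : 1 < Fintype.card K := Fintype.one_lt_card
        rw [hK, h0, pow_zero] at h4
        omega
      · exact dvd_pow hpq h0.ne'
    exact ((Nat.prime_dvd_prime_iff_eq hp hp').1 (hp.dvd_of_dvd_pow h3)).symm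
  subst hpp
  obtain ⟨y, hy1, hy2, hy3⟩ := exists_SU_small (p := p') hr hc hcent h1 h2 hrd (haN.mul_left _)
    (fun h => haN' (Nat.Coprime.dvd_of_dvd_mul_left
      (Nat.Coprime.pow_left _ ((Nat.Prime.coprime_iff_not_dvd hr).2 hN')) h))
    (Cfsg.Agent.H585.SuTw.prime_not_dvd hK p' hqN) (hown p')
    (arith_of_list hr (hm0 ▸ Dvd.intro_left _ rfl) hprime hnd hchk)
  have hNpos : 0 < N' * N := by
    refine Nat.pos_of_ne_zero fun h0 => ?_
    rw [h0] at h2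
    have h3 : d * Nat.card ↥T = 0 := Nat.eq_zero_of_zero_dvd h2
    rcases Nat.mul_eq_zero.1 h3 with h4 | h4
    · exact hrd (h4 ▸ dvd_zero r)
    · exact Nat.card_pos.ne' h4
  exact ⟨r, 1, y, hr, h7, le_rfl, hy1, hy2, hy3, hf,
    (card_cent_le hr le_rfl hy1 hy2 hcent (dvd_card_T hr haN h2 hrd)).trans (Nat.le_of_dvd hNpos h1)⟩

end Gen

end Cfsg.Agent.H288.AsT
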