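import Mathlib
import Cfsg.Agent.H288.AsTools
import Cfsg.Agent.H585.SuTE6
import Cfsg.Agent.H583.GoodGen
import Cfsg.Agent.H934.HeisTwE6
import Cfsg.Agent.S1070
import Cfsg.Agent.S2130

/-!
# `AS2` of `²E₆(q)` (helper288, for S3943)
-/

set_option autoImplicit false
set_option linter.unusedSectionVars false

namespace Cfsg.Agent.H288.AsTE6

open Subgroup Cfsg Cfsg.Lie Cfsg.Agent.H585.SuTor Cfsg.Agent.H585.SuSel Cfsg.Agent.H585.SuRow
  Cfsg.Agent.H585.SuTw Cfsg.Agent.H585.SuPhi Cfsg.Agent.H585.SuTE6 Cfsg.Agent.H288.AsT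
  Cfsg.Agent.H965.AS Cfsg.Agent.H583.GoodGen

/-- the small fields -/
theorem small {K : Type} [Field K] [Fintype K] {q N r m : ℕ} {L : List (ℕ × ℕ)} {p : ℕ} (hq : IsPrimePow q)
    (hK : Fintype.card K = q ^ 2) (hN : (N : ℤ) = 1 - (q : ℤ) ^ 3 + (q : ℤ) ^ 6)
    (hr : r.Prime) (h7 : 7 < r) (hrN : r ∣ N) (hrN2 : ¬ r ^ 2 ∣ N) (hf : ∃ p f : ℕ, p.Prime ∧ q = p ^ f ∧ ¬ r ∣ f)
    (hm0 : m * (q ^ 36 * (q ^ 2 - 1) * (q ^ 5 + 1) * (q ^ 6 - 1) * (q ^ 8 - 1) * (q ^ 9 + 1) * (q ^ 12 - 1)) = pp L)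
    (hprime : ∀ x ∈ L, x.1.Prime) (hnodup : (L.map Prod.fst).Nodup) (hp : p.Prime) (hpq : p ∣ q)
    (hchk : Chk r p L) : RowC ↥(twistedE6 K q) q (1 * N) := by
  obtain ⟨T, h1, h2, h3, h4, h5⟩ := torus hq hK hN hr h7 hrN
  have ho : orderOf (q : ZMod r) = 18 := by
    rcases ord18 hN r hr hrN with h | h
    · exact h
    · omega
  refine tw_rowC_small_of hK hr (by omega) hrN hrN2 hf h1 h5 (fun h => hr.one_lt.ne' (Nat.dvd_one.1 h)) h2 h3
    (not_dvd_gcd h7) h4 (fun p _ => own hq hK hr ho p) (L := L) (m := m * Nat.gcd 3 (q + 1))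
    ?_ hprime hnodup hp hpq hchk
  have h := Cfsg.Agent.S1066.result hq hK
  rw [show m * Nat.gcd 3 (q + 1) * Nat.card ↥(twistedE6 K q) = m * (Nat.gcd 3 (q + 1) * Nat.card ↥(twistedE6 K q)) by ring, h]
  exact hm0

theorem rowC {K : Type} [Field K] [Fintype K] {q : ℕ} (hq : IsPrimePow q) (hK : Fintype.card K = q ^ 2) :
    RowC ↥(twistedE6 K q) q (q ^ 6) := by
  have hq2 : 2 ≤ q := hq.two_le
  have hle : q ^ 3 ≤ q ^ 6 := Nat.pow_le_pow_right (by omega) (by norm_num)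
  obtain ⟨N, hNdef⟩ : ∃ N, N = q ^ 6 - q ^ 3 + 1 := ⟨_, rfl⟩
  have hN : (N : ℤ) = 1 - (q : ℤ) ^ 3 + (q : ℤ) ^ 6 := by rw [hNdef]; push_cast [Nat.cast_sub hle]; ring
  have hle1 : 1 * N ≤ q ^ 6 := by
    have h1 : 0 < q ^ 3 := by positivity
    omega
  rcases sel_pp (d := 78) (B := 153957) hq (by norm_num) (by norm_num) (by omega) (ord18 hN) (sq18 hN) (dvd18 hN)
    (by decide +kernel) (by norm_num) with ⟨r, a, hr, ha, ho, haN, haN', hd, hf⟩ | hB
  · obtain ⟨hmod, h6⟩ := mod_eq_one hr (by norm_num) ho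
    obtain ⟨T, h1, h2, h3, h4, h5⟩ := torus hq hK hN hr (by omega) (dvd18 hN r hr ho)
    exact (tw_rowC_of hK hr (by omega) ha haN haN' (by rw [dim]; exact hd) hf h1 h5
      (fun h => hr.one_lt.ne' (Nat.dvd_one.1 h)) h2 h3 (not_dvd_gcd (by omega)) h4
      (fun p _ => own hq hK hr ho p)).mono hle1
  · have hq4 : q ≤ 7 := by
      have := Nat.le_of_dvd (by norm_num) hB
      by_contra h
      push Not at h
      have h2 : 8 ^ 3 * q ^ 3 ≤ q ^ 3 * q ^ 3 := Nat.mul_le_mul_right _ (Nat.pow_le_pow_left h 3)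
      have h3 : 8 ^ 3 ≤ q ^ 3 := Nat.pow_le_pow_left h 3
      have h4 : q ^ 6 = q ^ 3 * q ^ 3 := by ring
      omega
    subst hNdef
    have hcases : q = 2 ∨ q = 3 := by
      clear hN hK hle hq hle1
      interval_cases q <;> revert hB <;> norm_num
    rcases hcases with rfl | rfl
    · exact (small (r := 19) (m := 1) (L := [(2, 36), (3, 10), (5, 2), (7, 2), (11, 1), (13, 1), (17, 1), (19, 1)]) (p := 2) hq hK hN (by norm_num) (by norm_num)
        (by norm_num) (by norm_num) ⟨2, 1, by norm_num, by norm_num, by norm_num⟩ (by decide +kernel) (by norm_num)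
        (by decide) (by norm_num) (by norm_num) (by decide +kernel)).mono hle1
    · exact (small (r := 37) (m := 1) (L := [(2, 19), (3, 36), (5, 2), (7, 3), (13, 2), (19, 1), (37, 1), (41, 1), (61, 1), (73, 1)]) (p := 3) hq hK hN (by norm_num) (by norm_num)
        (by norm_num) (by norm_num) ⟨3, 1, by norm_num, by norm_num, by norm_num⟩ (by decide +kernel) (by norm_num)
        (by decide) (by norm_num) (by norm_num) (by decide +kernel)).mono hle1

/-- **`AS2 ²E₆(q)`** -/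
theorem as2 {K : Type} [Field K] [Fintype K] {q : ℕ} (hq : IsPrimePow q) (hK : Fintype.card K = q ^ 2) :
    AS2 ↥(twistedE6 K q) := by
  have hs : IsSimpleGroup ↥(twistedE6 K q) := (Cfsg.Agent.S1070.result hq hK).1
  have hq2 : 2 ≤ q := hq.two_le
  refine RowC.as2 (b := q ^ 11) (rowC hq hK) (fun r hr h7 hf => ?_) (fun H hH => ?_)
    (Nat.pow_lt_pow_right (by omega) (by norm_num))
  · obtain ⟨p, f, hp, hpc, rfl, hf1, hF, hrf⟩ := not_dvd_exp (F := K) two_ne_zero hK hf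
    rw [Cfsg.Agent.S2130.result p f hF hf1]
    exact not_dvd_mul hr (not_dvd_mul hr (not_dvd_of_lt (by norm_num) (by omega))
      (Cfsg.Agent.H583.GoodGen.not_dvd_gcd (by norm_num) (by omega))) hrf
  · have h1 := Cfsg.Agent.H934.HeisTwE6.bound_2E6 hq hK hs H hH
    have h2 : (q ^ 11) ^ 2 ≤ H.index ^ 2 := by rw [← pow_mul]; exact h1
    exact (Nat.pow_le_pow_iff_left two_ne_zero).1 h2

/-- the row -/
theorem as2_2E6 {K : Type*} [Group K] (h : Iso2E6 K) : AS2 K := by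
  obtain ⟨F, _, _, q, hq, hF, ⟨e⟩⟩ := h
  exact (as2 hq hF).congr e.symm

end Cfsg.Agent.H288.AsTE6
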