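import Cfsg.Agent.H288.BnSplit
import Cfsg.Agent.H288.BnNum
import Cfsg.Agent.H979.LieSplit
import Cfsg.Agent.S1163
import Cfsg.Agent.S1069

/-!
# `Sz(q)` and `²G₂(q)`: three classes of supplements (helper288, S5907)
-/

set_option autoImplicit false
set_option linter.unusedSectionVars false

namespace Cfsg.Agent.H288.BnOne

open Cfsg Subgroup Cfsg.Agent.H339.MaxCl Cfsg.Agent.H288.BnSplit Cfsg.Agent.H288.BnHall Cfsg.Agent.H288.BnNum
  Cfsg.Agent.H163.PG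

universe u v

theorem noHall_num {K : Type*} [Group K] [Finite K] {p N m e r : ℕ} (hp : p.Prime) (hc : Nat.card K = p ^ N * m)
    (hm : ¬ p ∣ m) (hr : Ppd p e r) (hrm : r ∣ m) (he : N < e) : NoHall p K := by
  intro H hH
  obtain ⟨k, hk0, hk⟩ := hH.1
  have h1 : k ≤ N := Hall.le hp hk (g := 1) (m := m) (by rw [one_mul, hc]) hm
  have h2 : e ∣ k := Hall.dvd hp hH hk hr (by omega) (by rw [hc]; exact hrm.mul_left _)
  have := Nat.le_of_dvd hk0 h2
  omega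

/-- a primitive prime divisor of `p ^ (2 n) - 1` divides `p ^ n + 1` -/
theorem dvd_add_one {p n r : ℕ} (hp : p.Prime) (hn : 1 ≤ n) (hr : Ppd p (2 * n) r) : r ∣ p ^ n + 1 := by
  have h2 : r ∣ (p ^ n - 1) * (p ^ n + 1) := by
    have h3 : r ∣ p ^ (2 * n) - 1 := (hr.dvd_iff hp.one_lt.le _).2 dvd_rfl
    have h4 : (p ^ n - 1) * (p ^ n + 1) = p ^ (2 * n) - 1 := by
      rw [mul_comm, ← Nat.sq_sub_sq, one_pow, ← pow_mul, mul_comm n 2]
    rw [h4]
    exact h3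
  rcases hr.prime.dvd_mul.1 h2 with h3 | h3
  · exfalso
    rw [hr.dvd_iff hp.one_lt.le] at h3
    have := Nat.le_of_dvd (by omega) h3
    omega
  · exact h3

/-- the row `Sz(q)` -/
theorem supp_Sz {F : Type v} [Field F] [Fintype F] {m : ℕ} (hm : 1 ≤ m) (hF : Fintype.card F = 2 ^ (2 * m + 1))
    [hs : IsSimpleGroup ↥(Lie.Sz F (2 ^ (m + 1)))] (hns : ¬ Group.IsSolvable ↥(Lie.Sz F (2 ^ (m + 1)))) :
    Supp.{u} 3 ↥(Lie.Sz F (2 ^ (m + 1))) := by
  have : Fact (Nat.Prime 2) := ⟨Nat.prime_two⟩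
  have H := Cfsg.Agent.LieRecognition.SzMatrix.good hF
  obtain ⟨h1, -⟩ := Cfsg.Agent.S1163.result hm hF
  have hc : Nat.card ↥(Lie.Sz F (2 ^ (m + 1))) = 2 ^ (2 * (2 * m + 1)) * ((2 ^ (2 * m + 1) - 1) * (2 ^ (2 * (2 * m + 1)) + 1)) := by
    rw [h1, ← pow_mul, mul_comm 2 (2 * m + 1)]
    ring
  obtain ⟨r, hr⟩ := Ppd.exists (p := 2) (n := 2 * (2 * (2 * m + 1))) le_rfl (by omega) (by omega)
  refine supp_rank_one hns (H979.LieSplit.Sz.split hm hF H hs) (s := H.w) rfl ?_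
  refine noHall_num Nat.prime_two hc ?_ hr ((dvd_add_one Nat.prime_two (by omega) hr).mul_left _) (by omega)
  rw [Nat.prime_two.dvd_mul]
  push Not
  exact ⟨not_dvd_sub Nat.prime_two (by omega), not_dvd_add Nat.prime_two (by omega)⟩

/-- the row `²G₂(q)` -/
theorem supp_Ree {K : Type v} [Field K] [Fintype K] {m : ℕ} (hK : Fintype.card K = 3 ^ (2 * m + 1))
    [hs : IsSimpleGroup ↥(Lie.twistedG2 K (3 ^ m))] (hns : ¬ Group.IsSolvable ↥(Lie.twistedG2 K (3 ^ m))) :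
    Supp.{u} 3 ↥(Lie.twistedG2 K (3 ^ m)) := by
  have : Fact (Nat.Prime 3) := ⟨Nat.prime_three⟩
  obtain ⟨U, h, n, D⟩ := Cfsg.Agent.ChevalleyStructure.Ree.Data.exists_data hK
  have hc : Nat.card ↥(Lie.twistedG2 K (3 ^ m)) =
      3 ^ (3 * (2 * m + 1)) * ((3 ^ (2 * m + 1) - 1) * (3 ^ (3 * (2 * m + 1)) + 1)) := by
    rw [Cfsg.Agent.S1069.result hK, ← pow_mul, mul_comm 3 (2 * m + 1)]
    ring
  obtain ⟨r, hr⟩ := Ppd.exists (p := 3) (n := 2 * (3 * (2 * m + 1))) (by norm_num) (by omega) (by omega)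
  refine supp_rank_one hns (Cfsg.Agent.FixBN.ReeSplit.split hK D) (s := n) rfl ?_
  refine noHall_num Nat.prime_three hc ?_ hr ((dvd_add_one Nat.prime_three (by omega) hr).mul_left _) (by omega)
  rw [Nat.prime_three.dvd_mul]
  push Not
  exact ⟨not_dvd_sub Nat.prime_three (by omega), not_dvd_add Nat.prime_three (by omega)⟩

end Cfsg.Agent.H288.BnOne
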