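import Mathlib
import Cfsg.Prelude.Def_SporadicB

/-!
# 2-central involutions and `C(z)` of characteristic two with `Z(O₂(C(z))) = ⟨z⟩` (helper288)

`isConj_of_central` : `C(z)` of odd index, `Q` a 2-subgroup normalized by `C(z)`, `C_{C(z)}(Q) ≤ ⟨z⟩`: every 2-central
involution is conjugate to `z`.
-/

set_option autoImplicit false

namespace Cfsg.Agent.H288.Central

open Cfsg Subgroup

variable {G : Type*} [Group G] [Finite G]

/-- a Sylow 2-subgroup in a subgroup of odd index -/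
theorem exists_sylow_le {C : Subgroup G} (hodd : Odd C.index) (T0 : Sylow 2 C) :
    ∃ S : Sylow 2 G, (S : Subgroup G) = (T0 : Subgroup C).map C.subtype := by
  have : Fact (Nat.Prime 2) := ⟨Nat.prime_two⟩
  have hp : IsPGroup 2 ((T0 : Subgroup C).map C.subtype) := T0.isPGroup'.map _
  obtain ⟨S, hS⟩ := hp.exists_le_sylow
  refine ⟨S, le_antisymm ?_ hS⟩
  have h1 : ¬ 2 ∣ ((T0 : Subgroup C).map C.subtype).index := by
    rw [Subgroup.index_map_subtype]
    intro h
    rcases (Nat.prime_two.dvd_mul).1 h with h | h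
    · exact T0.not_dvd_index h
    · exact (Nat.not_even_iff_odd.2 hodd) (even_iff_two_dvd.2 h)
  have h2 : ((T0 : Subgroup C).map C.subtype).relIndex S ∣ ((T0 : Subgroup C).map C.subtype).index :=
    Subgroup.relIndex_dvd_index_of_le hS
  obtain ⟨n, hn⟩ := IsPGroup.iff_card.1 S.isPGroup'
  have h3 : ((T0 : Subgroup C).map C.subtype).relIndex S ∣ 2 ^ n := by
    rw [← hn]
    exact Subgroup.index_dvd_card _
  obtain ⟨k, -, hk⟩ := (Nat.dvd_prime_pow Nat.prime_two).1 h3
  rcases Nat.eq_zero_or_pos k with rfl | hk0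
  · rw [pow_zero] at hk
    exact Subgroup.relIndex_eq_one.1 hk
  · exfalso
    apply h1
    refine dvd_trans ?_ h2
    rw [hk]
    exact dvd_pow_self 2 hk0.ne'

theorem isConj_of_central {z : G} (hodd : Odd (centralizer ({z} : Set G)).index) (Q : Subgroup G)
    (hQ2 : IsPGroup 2 Q) (hQz : ∀ q ∈ Q, q * z = z * q) (hQn : ∀ g, g * z = z * g → ∀ q ∈ Q, g * q * g⁻¹ ∈ Q)
    (hc : ∀ g, g * z = z * g → (∀ q ∈ Q, g * q = q * g) → g = 1 ∨ g = z) {t : G} (ht : IsTwoCentralInvolution t) :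
    IsConj t z := by
  have : Fact (Nat.Prime 2) := ⟨Nat.prime_two⟩
  let C := centralizer ({z} : Set G)
  obtain ⟨T0⟩ : Nonempty (Sylow 2 C) := inferInstance
  obtain ⟨S, hS⟩ := exists_sylow_le hodd T0
  have hQC : Q ≤ C := fun q hq => mem_centralizer_singleton_iff.2 (hQz q hq)
  have hQn' : (Q.subgroupOf C).Normal := by
    constructor
    intro q hq g
    exact hQn g (mem_centralizer_singleton_iff.1 g.2) q (mem_subgroupOf.1 hq)
  have hQT : Q.subgroupOf C ≤ T0 := by
    have h1 : IsPGroup 2 (Q.subgroupOf C) := hQ2.of_equiv (subgroupOfEquivOfLe hQC).symm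
    exact h1.le_sylow_of_normal T0
  obtain ⟨ht2, S', htS', htc⟩ := ht
  obtain ⟨g, hg⟩ := MulAction.exists_smul_eq G S' S
  have hSc : ∀ x ∈ S, ∃ y ∈ S', x = g * y * g⁻¹ := by
    intro x hx
    rw [← hg] at hx
    obtain ⟨y, hy, rfl⟩ := hx
    exact ⟨y, hy, rfl⟩
  have hzS : g * t * g⁻¹ ∈ S := by
    rw [← hg]
    exact ⟨t, htS', rfl⟩
  have hzc : ∀ x ∈ S, x * (g * t * g⁻¹) = (g * t * g⁻¹) * x := by
    intro x hx
    obtain ⟨y, hy, rfl⟩ := hSc x hx
    have h1 := htc y hy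
    calc g * y * g⁻¹ * (g * t * g⁻¹) = g * (y * t) * g⁻¹ := by group
      _ = g * (t * y) * g⁻¹ := by rw [h1]
      _ = _ := by group
  have hSC : ∀ x ∈ S, x * z = z * x := by
    intro x hx
    have h1 : x ∈ (T0 : Subgroup C).map C.subtype := by
      rw [← hS]
      exact hx
    obtain ⟨y, -, rfl⟩ := h1
    exact mem_centralizer_singleton_iff.1 y.2
  rcases hc (g * t * g⁻¹) (hSC _ hzS) (fun q hq => (hzc q (by
      change q ∈ (S : Subgroup G)
      rw [hS]
      exact ⟨⟨q, hQC hq⟩, hQT (mem_subgroupOf.2 hq), rfl⟩)).symm) with h | h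
  · exfalso
    have h1 : t = 1 := by
      calc t = g⁻¹ * (g * t * g⁻¹) * g := by group
        _ = 1 := by rw [h]; group
    rw [h1, orderOf_one] at ht2
    omega
  · exact isConj_iff.2 ⟨g, h⟩

/-- `z` itself is 2-central -/
theorem isTwoCentral {z : G} (hz : orderOf z = 2) (hodd : Odd (centralizer ({z} : Set G)).index) :
    IsTwoCentralInvolution z := by
  have : Fact (Nat.Prime 2) := ⟨Nat.prime_two⟩
  let C := centralizer ({z} : Set G)
  obtain ⟨T0⟩ : Nonempty (Sylow 2 C) := inferInstance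
  obtain ⟨S, hS⟩ := exists_sylow_le hodd T0
  have hzC : z ∈ C := mem_centralizer_singleton_iff.2 rfl
  have hn : (zpowers (⟨z, hzC⟩ : C)).Normal := by
    constructor
    intro x hx g
    obtain ⟨k, rfl⟩ := mem_zpowers_iff.1 hx
    have h1 : g * (⟨z, hzC⟩ : C) = ⟨z, hzC⟩ * g := Subtype.ext (mem_centralizer_singleton_iff.1 g.2)
    have h2 : Commute g ((⟨z, hzC⟩ : C) ^ k) := Commute.zpow_right h1 k
    rw [h2.eq, mul_inv_cancel_right]
    exact ⟨k, rfl⟩
  have hp : IsPGroup 2 (zpowers (⟨z, hzC⟩ : C)) :=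
    IsPGroup.of_card (n := 1) (by rw [Nat.card_zpowers, Subgroup.orderOf_mk, hz, pow_one])
  have hzT : (⟨z, hzC⟩ : C) ∈ T0 := (hp.le_sylow_of_normal T0) (mem_zpowers _)
  refine ⟨hz, S, ?_, ?_⟩
  · change z ∈ (S : Subgroup G)
    rw [hS]
    exact ⟨_, hzT, rfl⟩
  · intro x hx
    have h1 : x ∈ (T0 : Subgroup C).map C.subtype := by
      rw [← hS]
      exact hx
    obtain ⟨y, -, rfl⟩ := h1
    exact mem_centralizer_singleton_iff.1 y.2

end Cfsg.Agent.H288.Central
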