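import Mathlib
import Cfsg.Agent.H288.KillLong
import Cfsg.Agent.GH.Defs

/-!
# The simple groups of sectional 2-rank at most 4 without bad 2-central involution (helper288)

`rest_of_not_bad` : `K4 X`, `t` a 2-central involution which is not `KillLong.Bad`: `X` is in the list `List4 X` (no field with
more than three elements in odd characteristic, except `PSL₂`).
-/

set_option autoImplicit false

namespace Cfsg.Agent.H288.Rest

open Cfsg Subgroup
open Cfsg.Agent.GH.Defs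
open Cfsg.Agent.H288.KillLong

universe u

/-- `PSL_n(q)` -/
def IsPSLq (n q : ℕ) (X : Type*) [Group X] : Prop :=
  ∃ (F : Type) (_ : Field F) (_ : Fintype F), Fintype.card F = q ∧
    Nonempty (X ≃* Matrix.ProjectiveSpecialLinearGroup (Fin n) F)

/-- `PSU_n(q)` -/
def IsPSUq (n q : ℕ) (X : Type*) [Group X] : Prop :=
  ∃ (F : Type) (_ : Field F) (_ : Fintype F), Fintype.card F = q ^ 2 ∧ Nonempty (X ≃* Cfsg.PSU n F q)

/-- `PSp_2m(q)` -/
def IsPSpq (m q : ℕ) (X : Type*) [Group X] : Prop :=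
  ∃ (F : Type) (_ : Field F) (_ : Fintype F), Fintype.card F = q ∧ Nonempty (X ≃* Cfsg.PSp m F)

/-- `G₂(q)` -/
def IsG2q (q : ℕ) (X : Type*) [Group X] : Prop :=
  ∃ (F : Type) (_ : Field F) (_ : Fintype F), Fintype.card F = q ∧ Nonempty (X ≃* ↥(Lie.chevG2.group F))

/-- the rest -/
def List4 (X : Type*) [Group X] : Prop :=
  IsL2odd X ∨ IsPSLq 3 3 X ∨ IsPSUq 3 3 X ∨ IsU34 X ∨ IsAlt 7 X ∨ Spor.IsoM11 X ∨
    IsL28 X ∨ IsSz8 X ∨ Lie.IsoRee X ∨ Spor.IsoJ1 X ∨ IsL216 X ∨ IsL34 X ∨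
    (∃ n, 8 ≤ n ∧ n ≤ 11 ∧ IsAlt n X) ∨ IsPSpq 2 3 X ∨ IsPSLq 4 3 X ∨ IsPSUq 4 3 X ∨ IsPSLq 5 3 X ∨ IsG2q 3 X ∨
    Spor.IsoM12 X ∨ Spor.IsoM22 X ∨ Spor.IsoM23 X ∨ Spor.IsoJ2 X ∨ Spor.IsoJ3 X ∨ HasAltCover X

theorem card_three {F : Type*} [Field F] [Fintype F] (ho : Odd (Fintype.card F)) (h : ¬ 3 < Fintype.card F) :
    Fintype.card F = 3 := by
  have h1 : 1 < Fintype.card F := Fintype.one_lt_card
  obtain ⟨k, hk⟩ := ho
  omega

theorem q_three {F : Type*} [Field F] [Fintype F] {q : ℕ} (hF : Fintype.card F = q ^ 2) (ho : Odd q) (h : ¬ 3 < q) :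
    q = 3 := by
  have h1 : 1 < Fintype.card F := Fintype.one_lt_card
  obtain ⟨k, hk⟩ := ho
  have : q = 1 ∨ q = 3 := by omega
  rcases this with rfl | rfl
  · norm_num at hF
    omega
  · rfl

theorem psl_row {X : Type u} [Group X] [Finite X] {t : X} (ht : IsTwoCentralInvolution t) (hb : ¬ Bad t) {n : ℕ}
    (hn : 3 ≤ n) {F : Type} [Field F] [Fintype F] (ho : Odd (Fintype.card F))
    (e : Nonempty (X ≃* Matrix.ProjectiveSpecialLinearGroup (Fin n) F)) : IsPSLq n 3 X := by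
  by_cases h : 3 < Fintype.card F
  · exact (hb (bad_psl hn ho h e ht)).elim
  · exact ⟨F, _, _, card_three ho h, e⟩

theorem psu_row {X : Type u} [Group X] [Finite X] {t : X} (ht : IsTwoCentralInvolution t) (hb : ¬ Bad t) {n : ℕ}
    (hn : 3 ≤ n) {F : Type} [Field F] [Fintype F] {q : ℕ} (hF : Fintype.card F = q ^ 2) (ho : Odd q)
    (e : Nonempty (X ≃* Cfsg.PSU n F q)) : IsPSUq n 3 X ∧ q = 3 := by
  by_cases h : 3 < q
  · exact (hb (bad_psu hn hF ho h e ht)).elim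
  · have h3 := q_three hF ho h
    subst h3
    exact ⟨⟨F, _, _, hF, e⟩, rfl⟩

/-- **The rest.** -/
theorem rest_of_not_bad {X : Type u} [Group X] [Finite X] (h : K4 X) {t : X} (ht : IsTwoCentralInvolution t)
    (hb : ¬ Bad t) : List4 X := by
  rcases h with h | h | h | h | h | h | h | h | h | h | h | h | h | h | h | h | h | h
  · rcases h with h | h | h | h | h | h
    · exact Or.inl h
    · obtain ⟨F, _, _, ho, e⟩ := h
      exact Or.inr (Or.inl (psl_row ht hb le_rfl ho e))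
    · obtain ⟨F, _, _, q, hF, ho, e⟩ := h
      exact Or.inr (Or.inr (Or.inl (psu_row ht hb le_rfl hF ho e).1))
    · unfold List4; tauto
    · unfold List4; tauto
    · unfold List4; tauto
  · rcases h with h | h | h | h <;> (unfold List4; tauto)
  · unfold List4; tauto
  · unfold List4; tauto
  · exact Or.inr (Or.inr (Or.inr (Or.inr (Or.inr (Or.inr (Or.inr (Or.inr (Or.inr (Or.inr (Or.inr (Or.inr (Or.inl h))))))))))))
  · -- `PSp₄`
    obtain ⟨F, _, _, ho, e⟩ := h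
    by_cases h3 : 3 < Fintype.card F
    · exact (hb (bad_psp le_rfl ho h3 e ht)).elim
    · have : IsPSpq 2 3 X := ⟨F, _, _, card_three ho h3, e⟩
      unfold List4; tauto
  · -- `PSL₄`
    obtain ⟨F, _, _, ho, -, e⟩ := h
    have := psl_row ht hb (by norm_num) ho e
    unfold List4; tauto
  · -- `PSU₄`
    obtain ⟨F, _, _, q, hF, ho, -, e⟩ := h
    have := (psu_row ht hb (by norm_num) hF ho e).1
    unfold List4; tauto
  · -- `PSL₅`
    obtain ⟨F, _, _, ho, e⟩ := h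
    have := psl_row ht hb (by norm_num) (Nat.odd_iff.2 (by omega)) e
    unfold List4; tauto
  · -- `PSU₅`
    obtain ⟨F, _, _, q, hF, ho, e⟩ := h
    have h3 := (psu_row ht hb (by norm_num) hF (Nat.odd_iff.2 (by omega)) e).2
    omega
  · -- `G₂`
    obtain ⟨⟨F, _, _, ho, e⟩, -⟩ := h
    by_cases h3 : 3 < Fintype.card F
    · exact (hb (bad_g2 ho h3 e ht)).elim
    · have : IsG2q 3 X := ⟨F, _, _, card_three ho h3, e⟩
      unfold List4; tauto
  · -- `³D₄`
    obtain ⟨⟨K, _, _, q, ho, hK, e⟩, -⟩ := h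
    exact (hb (bad_d4 ho hK e ht)).elim
  all_goals unfold List4; tauto

end Cfsg.Agent.H288.Rest
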