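import Mathlib
import Cfsg.Agent.H288.Central
import Cfsg.Agent.H288.KillLong
import Cfsg.Agent.QTNorm.SporQMinus
import Cfsg.Agent.KFacts.J2.Facts
import Cfsg.Agent.KFacts.J3

/-!
# `J₂` and `J₃`: centralizers of 2-central involutions are not solvable (helper288)
-/

set_option autoImplicit false

namespace Cfsg.Agent.H288.SporJ

open Cfsg Subgroup
open Cfsg.Agent.J2Type.Model

/-- `A₅` is not solvable -/
theorem not_solvable_alt_five : ¬ Group.IsSolvable (alternatingGroup (Fin 5)) := by
  intro h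
  apply Equiv.Perm.not_isSolvable_fin_5
  refine Group.isSolvable_of_ker_le_range (alternatingGroup (Fin 5)).subtype (Equiv.Perm.sign (α := Fin 5)) ?_
  rw [range_subtype]
  exact le_rfl

variable {G : Type*} [Group G] {z : G} {zc : centralizer ({z} : Set G)} {Q : Subgroup (centralizer ({z} : Set G))}
  {v : Fin 5 → centralizer ({z} : Set G)} {ρ : centralizer ({z} : Set G) →* SP}

theorem not_solvable (M : IsModel Q zc v ρ) : ¬ Group.IsSolvable ↥(centralizer ({z} : Set G)) := by
  intro h
  let f : centralizer ({z} : Set G) →* Equiv.Perm (Fin 5) :=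
    { toFun := fun c => (ρ c).σ
      map_one' := by rw [map_one]; rfl
      map_mul' := fun a b => by rw [map_mul]; rfl }
  have h1 : Group.IsSolvable f.range := Group.isSolvable_of_surjective (f := f.rangeRestrict) f.rangeRestrict_surjective
  have h2 : alternatingGroup (Fin 5) ≤ f.range := by
    intro σ hσ
    obtain ⟨c, hc⟩ := (M.range ⟨σ, fun _ => 0⟩).2 ⟨hσ, by simp⟩
    exact ⟨c, by change (ρ c).σ = σ; rw [hc]⟩
  exact not_solvable_alt_five (Group.isSolvable_of_isSolvable_injective (f := inclusion h2) (inclusion_injective h2))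

theorem isConj_of_model [Finite G] (hodd : Odd (centralizer ({z} : Set G)).index) (M : IsModel Q zc v ρ)
    (hz : (zc : G) = z) {t : G} (ht : IsTwoCentralInvolution t) : IsConj t z := by
  refine Central.isConj_of_central hodd (Q.map (centralizer ({z} : Set G)).subtype)
    (Cfsg.Agent.QTNorm.isPGroup_QG M) ?_ ?_ ?_ ht
  · rintro _ ⟨q, -, rfl⟩
    exact mem_centralizer_singleton_iff.1 q.2
  · rintro g hg _ ⟨q, hq, rfl⟩
    exact ⟨_, Cfsg.Agent.QTNorm.conj_Q M ⟨g, mem_centralizer_singleton_iff.2 hg⟩ q hq, rfl⟩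
  · intro g hg hc
    have h1 : ρ ⟨g, mem_centralizer_singleton_iff.2 hg⟩ = 1 := by
      have h2 : ∀ i, (ρ ⟨g, mem_centralizer_singleton_iff.2 hg⟩).s i = 0 ∧
          (ρ ⟨g, mem_centralizer_singleton_iff.2 hg⟩).σ i = i := by
        intro i
        have h3 := M.conj ⟨g, mem_centralizer_singleton_iff.2 hg⟩ i
        have h4 : (⟨g, mem_centralizer_singleton_iff.2 hg⟩ : centralizer ({z} : Set G)) * v i *
            (⟨g, mem_centralizer_singleton_iff.2 hg⟩ : centralizer ({z} : Set G))⁻¹ = v i := by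
          apply Subtype.ext
          change g * (v i : G) * g⁻¹ = v i
          have h6 : g * (v i : G) = (v i : G) * g := hc _ ⟨v i, M.v_mem i, rfl⟩
          rw [h6, mul_inv_cancel_right]
        rw [h4] at h3
        have h5 := M.v_inj 0 _ i _ (by rw [← h3]; simp [zp])
        exact ⟨h5.1.symm, h5.2.symm⟩
      apply SP.ext
      · exact Equiv.ext fun i => (h2 i).2
      · funext i
        exact (h2 i).1
    rcases (M.ker _).1 h1 with h | h
    · exact Or.inl (congrArg Subtype.val h)
    · right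
      rw [← hz]
      exact congrArg Subtype.val h

/-- **`J₂`.** -/
theorem j2 [Finite G] (h : Spor.IsoJ2 G) {t : G} (ht : IsTwoCentralInvolution t) :
    ¬ Group.IsSolvable ↥(centralizer ({t} : Set G)) := by
  obtain ⟨z, u, Q, v, ρ, D⟩ := Cfsg.Agent.KFacts.J2.Facts.exists_dat_of h
  have hodd : Odd (centralizer ({z} : Set G)).index := by rw [D.index]; decide
  obtain ⟨e⟩ := Cfsg.Agent.H288.KillLong.exists_centEquiv (isConj_of_model hodd D.M rfl ht)
  intro h1
  exact not_solvable D.M (Group.isSolvable_of_surjective (f := e.toMonoidHom) e.surjective)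

/-- **`J₃`.** -/
theorem j3 (h : Spor.IsoJ3 G) {t : G} (ht : orderOf t = 2) :
    ¬ Group.IsSolvable ↥(centralizer ({t} : Set G)) := by
  obtain ⟨-, z, Q, v, ρ, n, u, F⟩ := Cfsg.Agent.KFacts.J3.exists_facts h
  have ht1 : t ≠ 1 := by
    rintro rfl
    rw [orderOf_one] at ht
    omega
  obtain ⟨g, hg⟩ := F.one t ht1 (by rw [← pow_two, ← ht, pow_orderOf_eq_one])
  obtain ⟨e⟩ := Cfsg.Agent.H288.KillLong.exists_centEquiv (isConj_iff.2 ⟨g, hg⟩ : IsConj z t)
  intro h1
  exact not_solvable F.model (Group.isSolvable_of_surjective (f := e.symm.toMonoidHom) e.symm.surjective)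

end Cfsg.Agent.H288.SporJ
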