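import Mathlib
import Cfsg.Agent.H288.Orbit
import Cfsg.Agent.H288.Light
import Cfsg.Agent.H288.Rest
import Cfsg.Agent.H288.CompRows
import Cfsg.Agent.H288.SporJ
import Cfsg.Agent.H288.SporM23
import Cfsg.Agent.GH.L2Quad
import Cfsg.Agent.GH.Cov.QuatTop
import Cfsg.Agent.GH.EFrameTops
import Cfsg.Agent.GH.L3S.WorldOf
import Cfsg.Agent.GH.FinalLit
import Cfsg.Agent.SignalizersComponents.BalEndSz
import Cfsg.Agent.SmallSimple.S1000.PSLFacts
import Cfsg.Agent.RankThree.FilterSpor
import Cfsg.Agent.SevenLow.MTwelve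
import Cfsg.Agent.MTwelveType.SylowModel

/-!
# The rows of `List4` with all 2-constrained 2-local subgroups solvable (helper288)
-/

set_option autoImplicit false

namespace Cfsg.Agent.H288.SmallRows

open Cfsg Subgroup
open Cfsg.Agent.GH.Defs
open Cfsg.Agent.H288.Rest Cfsg.Agent.H288.Orbit

universe u

variable {G : Type u} [Group G] [Finite G]

/-- `PSL₂(q)`, `q` odd: normalizers of 2-subgroups are solvable, if centralizers of involutions are. -/
theorem l2odd (h : IsL2odd G) {t : G} (ht : orderOf t = 2) (hs : Group.IsSolvable ↥(centralizer ({t} : Set G)))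
    {T : Subgroup G} (hT : IsPGroup 2 T) (hne : T ≠ ⊥) : Group.IsSolvable ↥(normalizer (T : Set G)) := by
  have : Fact (Nat.Prime 2) := ⟨Nat.prime_two⟩
  have hF := Cfsg.Agent.GH.L2Quad.f4_of_isL2odd h
  have hD := Cfsg.Agent.GH.Cov.QuatTop.dihTop_of_isL2odd h
  obtain ⟨z, hz, hz1⟩ := exists_inv hT hne
  have ht1 : t ≠ 1 := by
    rintro rfl
    rw [orderOf_one] at ht
    omega
  have ht2 : t * t = 1 := by rw [← pow_two, ← ht, pow_orderOf_eq_one]
  have hzz : z * z = 1 := (mem_om.1 hz).2.2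
  have hsz : Group.IsSolvable ↥(centralizer ({z} : Set G)) := by
    obtain ⟨g, hg⟩ := hD.conj t z ht2 ht1 hzz hz1
    obtain ⟨e⟩ := Cfsg.Agent.H288.KillLong.exists_centEquiv (isConj_iff.2 ⟨g, hg⟩ : IsConj t z)
    exact Group.isSolvable_of_surjective (f := e.toMonoidHom) e.surjective
  have hop : IsPGroup 2 (om T) := hT.to_le (fun x hx => (mem_om.1 hx).1)
  have hcard : Nat.card (om T) ≤ 4 := by
    by_contra hcon
    obtain ⟨n, hn⟩ := IsPGroup.iff_card.1 hop
    have hn2 : 2 ≤ n := by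
      by_contra hlt
      have : 2 ^ n ≤ 2 ^ 1 := Nat.pow_le_pow_right (by norm_num) (by omega)
      omega
    obtain ⟨K, hK⟩ := Sylow.exists_subgroup_card_pow_prime (G := om T) 2 (n := 2) (by rw [hn]; exact pow_dvd_pow 2 hn2)
    let U : Subgroup G := K.map (om T).subtype
    have hUle : ∀ a ∈ U, a ∈ om T := by
      rintro _ ⟨a, -, rfl⟩
      exact a.2
    have hU4 : Nat.card U = 4 := by
      rw [Subgroup.card_map_of_injective (om T).subtype_injective, hK]
      norm_num
    have hU : Cfsg.Agent.GH.L2Tri.Four U :=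
      ⟨fun a ha b hb => (mem_om.1 (hUle a ha)).2.1 b (mem_om.1 (hUle b hb)).1,
        fun a ha => (mem_om.1 (hUle a ha)).2.2, hU4⟩
    have hle : om T ≤ U := by
      intro a ha
      refine (hF U hU).1 a (fun u hu => ?_) 1 ?_
      · exact (mem_om.1 ha).2.1 u (mem_om.1 (hUle u hu)).1
      · rw [pow_one, pow_two]
        exact (mem_om.1 ha).2.2
    have := Subgroup.card_le_of_le hle
    omega
  have hi := index_lt (N := normalizer (T : Set G)) (W := om T) (fun n hn w hw => om_conj hn hw) hz hz1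
  refine solvable_of_index ((centralizer ({z} : Set G)).subgroupOf (normalizer (T : Set G))) ?_ (by omega)
  exact Group.isSolvable_of_isSolvable_injective
    (f := ((normalizer (T : Set G)).subtype.subgroupComap (centralizer ({z} : Set G)))) (by
      intro a b hab
      have h0 : ((a : ↥(normalizer (T : Set G))) : G) = ((b : ↥(normalizer (T : Set G))) : G) :=
        congrArg (fun x : ↥(centralizer ({z} : Set G)) => (x : G)) hab
      exact Subtype.ext (Subtype.ext h0))

/-- `Sz(8)`: normalizers of 2-subgroups are solvable. -/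
theorem sz8 [IsSimpleGroup G] (h : IsSz8 G) (hr : SectionalPRankLE 2 4 G)
    {T : Subgroup G} (hT : IsPGroup 2 T) (hne : T ≠ ⊥) : Group.IsSolvable ↥(normalizer (T : Set G)) := by
  have : Fact (Nat.Prime 2) := ⟨Nat.prime_two⟩
  have hcard := (Cfsg.Agent.GH.FinalLit.isSz8 h).2
  have hsuz : Lie.IsoSuzuki G := by
    obtain ⟨F, i1, i2, hF, e⟩ := h
    exact ⟨F, i1, i2, 1, le_rfl, by rw [hF]; norm_num, e⟩
  obtain ⟨z, hz, hz1⟩ := exists_inv hT hne
  have hzz : z * z = 1 := (mem_om.1 hz).2.2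
  have hz2 : orderOf z = 2 := orderOf_eq_prime (by rw [pow_two, hzz]) hz1
  have hC := Cfsg.Agent.SignalizersComponents.BalEndSz.isPGroup_centralizer_suzuki hsuz hz2
  have h16 : Nat.card (om T) ≤ 16 := by
    have := (Cfsg.Agent.GH.C2Five.r4_iff.2 hr) (om T) ⊥
      (Cfsg.Agent.GH.C2Five.elem_bot (fun v hv => by rw [pow_two]; exact (mem_om.1 hv).2.2))
    simpa using this
  set N := normalizer (T : Set G) with hN
  have hi := index_lt (N := N) (W := om T) (fun n hn w hw => om_conj hn hw) hz hz1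
  have hP : IsPGroup 2 ((centralizer ({z} : Set G)).subgroupOf N) :=
    hC.of_injective (N.subtype.subgroupComap (centralizer ({z} : Set G))) (by
      intro a b hab
      have h0 : ((a : ↥(normalizer (T : Set G))) : G) = ((b : ↥(normalizer (T : Set G))) : G) :=
        congrArg (fun x : ↥(centralizer ({z} : Set G)) => (x : G)) hab
      exact Subtype.ext (Subtype.ext h0))
  obtain ⟨a, ha⟩ := IsPGroup.iff_card.1 hP
  have hNc := Subgroup.card_mul_index ((centralizer ({z} : Set G)).subgroupOf N)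
  have hd : ((centralizer ({z} : Set G)).subgroupOf N).index ∣ 29120 := by
    rw [← hcard]
    exact (Dvd.intro_left _ hNc).trans (Subgroup.card_subgroup_dvd_card N)
  rw [ha] at hNc
  generalize ((centralizer ({z} : Set G)).subgroupOf N).index = i at hi hNc hd
  have hi2 : i < 16 := by omega
  have h5 := Nat.prime_five
  have h7 : Nat.Prime 7 := by norm_num
  have h13 : Nat.Prime 13 := by norm_num
  interval_cases i
  · norm_num at hd
  · exact Cfsg.Agent.S0144.result 2 5 a 0 Nat.prime_two h5 (by rw [← hNc]; ring)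
  · exact Cfsg.Agent.S0144.result 2 5 (a + 1) 0 Nat.prime_two h5 (by rw [← hNc]; ring)
  · norm_num at hd
  · exact Cfsg.Agent.S0144.result 2 5 (a + 2) 0 Nat.prime_two h5 (by rw [← hNc]; ring)
  · exact Cfsg.Agent.S0144.result 2 5 a 1 Nat.prime_two h5 (by rw [← hNc]; ring)
  · norm_num at hd
  · exact Cfsg.Agent.S0144.result 2 7 a 1 Nat.prime_two h7 (by rw [← hNc]; ring)
  · exact Cfsg.Agent.S0144.result 2 5 (a + 3) 0 Nat.prime_two h5 (by rw [← hNc]; ring)
  · norm_num at hd
  · exact Cfsg.Agent.S0144.result 2 5 (a + 1) 1 Nat.prime_two h5 (by rw [← hNc]; ring)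
  · norm_num at hd
  · norm_num at hd
  · exact Cfsg.Agent.S0144.result 2 13 a 1 Nat.prime_two h13 (by rw [← hNc]; ring)
  · exact Cfsg.Agent.S0144.result 2 7 (a + 1) 1 Nat.prime_two h7 (by rw [← hNc]; ring)
  · norm_num at hd

/-- a group of even order has a 2-central involution -/
theorem exists_central (h : 2 ∣ Nat.card G) : ∃ t : G, IsTwoCentralInvolution t := by
  have : Fact (Nat.Prime 2) := ⟨Nat.prime_two⟩
  obtain ⟨P⟩ : Nonempty (Sylow 2 G) := inferInstance
  have hne : (P : Subgroup G) ≠ ⊥ := by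
    intro hb
    have h1 : 2 ^ 1 ∣ Nat.card P := Sylow.pow_dvd_card_of_pow_dvd_card P (by rwa [pow_one])
    rw [hb, Subgroup.card_bot] at h1
    norm_num at h1
  obtain ⟨z, hz, hz1⟩ := exists_inv P.isPGroup' hne
  obtain ⟨h1, h2, h3⟩ := mem_om.1 hz
  exact ⟨z, orderOf_eq_prime (by rw [pow_two, h3]) hz1, P, h1, fun x hx => (h2 x hx).symm⟩

/-- the output of `Light.light` -/
def LC (X : Type*) [Group X] : Prop :=
  (64 * 5 ∣ Nat.card X ∧ (¬ PRankLE 2 3 X ∨ 128 ∣ Nat.card X)) ∨ 64 * 21 ∣ Nat.card X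

theorem LC.dvd {X : Type*} [Group X] (h : LC X) : 64 ∣ Nat.card X := by
  rcases h with ⟨h, -⟩ | h
  · exact (Dvd.intro _ rfl).trans h
  · exact (Dvd.intro _ rfl).trans h

theorem prank_mono {X : Type*} [Group X] (h : PRankLE 2 2 X) : PRankLE 2 3 X := fun A hA hA2 =>
  (h A hA hA2).trans (by norm_num)

omit [Finite G] in
theorem card_alt (n : ℕ) (hn : 2 ≤ n) (h : IsAlt n G) : 2 * Nat.card G = n.factorial := by
  obtain ⟨e⟩ := h
  have : Nontrivial (Fin n) := Fin.nontrivial_iff_two_le.2 hn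
  rw [Nat.card_congr e.toEquiv, nat_card_alternatingGroup, Nat.card_eq_fintype_card, Fintype.card_fin]
  have := Nat.factorial_dvd_factorial hn
  rw [Nat.factorial_two] at this
  omega

theorem sylE8_not (h : Cfsg.Agent.GH.EFrameMain.SylE8 G) : ¬ 64 ∣ Nat.card G := by
  have : Fact (Nat.Prime 2) := ⟨Nat.prime_two⟩
  intro hd
  obtain ⟨P⟩ : Nonempty (Sylow 2 G) := inferInstance
  have h1 := (h P).1
  have h2 := P.card_eq_multiplicity
  have h3 : 2 ^ 6 ∣ Nat.card P := Sylow.pow_dvd_card_of_pow_dvd_card P hd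
  rw [h1] at h3
  norm_num at h3

/-- **The table.** -/
theorem table [IsSimpleGroup G] (hna : ¬ IsMulCommutative G) (hr : SectionalPRankLE 2 4 G)
    (h1738 : Cfsg.Agent.GH.AltOut.St1738 G) (h : List4 G) {t : G} (ht : IsTwoCentralInvolution t)
    (hs : Group.IsSolvable ↥(centralizer ({t} : Set G))) (hLC : LC G)
    {T : Subgroup G} (hT : IsPGroup 2 T) (hne : T ≠ ⊥) (hTs : ¬ Group.IsSolvable ↥(normalizer (T : Set G))) :
    IsL34 G ∨ (∃ n, 8 ≤ n ∧ n ≤ 11 ∧ IsAlt n G) ∨ IsPSpq 2 3 G ∨ IsPSLq 4 3 G ∨ IsPSUq 4 3 G ∨ IsG2q 3 G ∨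
      Spor.IsoM22 G := by
  rcases h with h | h | h | h | h | h | h | h | h | h | h | h | h | h | h | h | h | h | h | h | h | h | h | h
  · exact (hTs (l2odd h ht.1 hs hT hne)).elim
  · -- `L₃(3)`
    exfalso
    obtain ⟨F, _, _, hF, ⟨e⟩⟩ := h
    have h1 := hLC.dvd
    rw [Nat.card_congr e.toEquiv, Cfsg.Agent.SmallSimple.PSLFacts.card_psl_three_three hF] at h1
    norm_num at h1
  · -- `U₃(3)`
    exfalso
    obtain ⟨F, _, _, hF, ⟨e⟩⟩ := h
    have h1 := hLC.dvd
    rw [Nat.card_congr e.toEquiv, Cfsg.Agent.SmallSimple.PSLFacts.card_psu_three_three (by rw [hF]; norm_num)] at h1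
    norm_num at h1
  · -- `U₃(4)`
    exfalso
    have h3 := prank_mono (Cfsg.Agent.RankThree.FilterSpor.u34 h)
    obtain ⟨F, _, _, hF, ⟨e⟩⟩ := h
    have hc : Nat.card G = 62400 := by
      rw [Nat.card_congr e.toEquiv]
      have h := Cfsg.Agent.S0280.result (F := F) (q := 4) (by rw [hF]; norm_num) 3 (by norm_num)
      norm_num [Finset.prod_range_succ, Nat.even_iff] at h
      omega
    rcases hLC with ⟨-, h4 | h4⟩ | h4
    · exact h4 h3
    · rw [hc] at h4
      norm_num at h4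
    · rw [hc] at h4
      norm_num at h4
  · -- `A₇`
    exfalso
    have h1 := hLC.dvd
    have h2 := card_alt 7 (by norm_num) h
    have h3 : Nat.card G = 2520 := by
      have : Nat.factorial 7 = 5040 := by decide
      omega
    rw [h3] at h1
    norm_num at h1
  · -- `M₁₁`
    exfalso
    have h1 := hLC.dvd
    rw [Cfsg.Agent.GH.L3S.WorldOf.card_of_isoM11 h] at h1
    norm_num at h1
  · exact (sylE8_not (Cfsg.Agent.GH.EFrameTops.sylE8_L28 h) hLC.dvd).elim
  · exact (hTs (sz8 h hr hT hne)).elim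
  · exact (sylE8_not (Cfsg.Agent.GH.EFrameTops.sylE8_ree h) hLC.dvd).elim
  · exact (sylE8_not (Cfsg.Agent.GH.EFrameTops.sylE8_J1 h) hLC.dvd).elim
  · -- `L₂(16)`
    exfalso
    obtain ⟨F, _, _, hF, ⟨e⟩⟩ := h
    have h1 := hLC.dvd
    have hc : Nat.card G = 4080 := by
      rw [Nat.card_congr e.toEquiv]
      have h1 := Cfsg.Agent.S0243.result hF 2 le_rfl
      rw [Fin.prod_univ_two] at h1
      norm_num at h1
      omega
    rw [hc] at h1
    norm_num at h1
  · exact Or.inl h
  · exact Or.inr (Or.inl h)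
  · exact Or.inr (Or.inr (Or.inl h))
  · exact Or.inr (Or.inr (Or.inr (Or.inl h)))
  · exact Or.inr (Or.inr (Or.inr (Or.inr (Or.inl h))))
  · exact ((CompRows.psl5 h ht.1).not_solvable hs).elim
  · exact Or.inr (Or.inr (Or.inr (Or.inr (Or.inr (Or.inl h)))))
  · -- `M₁₂`
    exfalso
    have h3 := Cfsg.Agent.SevenLow.MTwelve.low h
    have hc : Nat.card G = 95040 := by
      obtain ⟨e⟩ := h
      rw [Nat.card_congr e.toEquiv, Cfsg.Agent.MTwelveType.SylowModel.card_M12]
    rcases hLC with ⟨-, h4 | h4⟩ | h4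
    · exact h4 h3
    · rw [hc] at h4
      norm_num at h4
    · rw [hc] at h4
      norm_num at h4
  · exact Or.inr (Or.inr (Or.inr (Or.inr (Or.inr (Or.inr h)))))
  · exact (SporM23.m23 h ht.1 hs).elim
  · exact (SporJ.j2 h ht hs).elim
  · exact (SporJ.j3 h ht.1 hs).elim
  · exact ((CompRows.alt hna h1738 h ht.1).not_solvable hs).elim

end Cfsg.Agent.H288.SmallRows
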